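import Cfsg.Agent.R2.Spec.X7.LtP

/-!
# The equations for the special numbers of `PSU_7(q)` (helper27)

`K = q ^ 7 + 1`; special numbers `D1 = q⁴ - q³ - 2`, `D2 = q⁶ - q - 2`, `D3 = q⁶ + q² + q - 1`, `X = q⁵ - q² + 2`.
-/

set_option autoImplicit false

namespace Cfsg.Agent.R2.Spec.X7.U7

/-- `D u - K` is not small -/
theorem gapE {D K m r u : ℤ} (hD : 0 < D) (hK : K = D * m + r) (hr : 0 ≤ r) (h : K < D * u) :
    D - r ≤ D * u - K ∧ m + 1 ≤ u := by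
  have h1 : m < u := by
    have h2 : D * m < D * u := by linarith
    exact lt_of_mul_lt_mul_left h2 hD.le
  have h3 : D * (m + 1) ≤ D * u := mul_le_mul_of_nonneg_left (by omega) hD.le
  exact ⟨by linarith, by omega⟩

/-- `K - D u` is not small -/
theorem gapO {D K m r u : ℤ} (hD : 0 < D) (hK : K = D * m + r) (hr : r < D) (h : D * u < K) :
    u ≤ m ∧ D * (m - u) + r = K - D * u := by
  have h1 : u < m + 1 := by
    have h2 : D * u < D * (m + 1) := by linarith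
    exact lt_of_mul_lt_mul_left h2 hD.le
  exact ⟨by omega, by rw [hK]; ring⟩

/-- `PSU_m`, even -/
theorem eqE {D K u z : ℤ} (hD : 0 < D) (hK : 2 * D ≤ K) (hu : 2 ≤ u) (hz : u ^ 5 ≤ z)
    (h : D * (u * z - 1) = K * (z + u + 2)) (hgap : K < D * u → D ≤ 10 * (D * u - K)) : False := by
  have hz0 : 0 < z := lt_of_lt_of_le (by positivity) hz
  have h1 : z * (D * u - K) = D + K * (u + 2) := by linear_combination h
  have h2 : 0 < D * u - K := by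
    by_contra hcon
    have h3 : z * (D * u - K) ≤ 0 := mul_nonpos_of_nonneg_of_nonpos hz0.le (not_lt.1 hcon)
    have h4 : 0 < K * (u + 2) := mul_pos (by linarith) (by linarith)
    linarith
  have h3 : u ≠ 2 := by
    rintro rfl
    linarith
  have h4 := hgap (by linarith)
  have h5 : D + K * (u + 2) < D * (u + 1) ^ 2 := by
    have : K * (u + 2) < D * u * (u + 2) := mul_lt_mul_of_pos_right (by linarith) (by linarith)
    nlinarith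
  have h6 : D * u ^ 5 ≤ 10 * (z * (D * u - K)) := by
    calc D * u ^ 5 ≤ D * z := mul_le_mul_of_nonneg_left hz hD.le
      _ = z * D := mul_comm _ _
      _ ≤ z * (10 * (D * u - K)) := mul_le_mul_of_nonneg_left h4 hz0.le
      _ = _ := by ring
  have h7 : D * u ^ 5 < D * (10 * (u + 1) ^ 2) := by
    rw [h1] at h6
    linarith
  have h8 := lt_of_mul_lt_mul_left h7 hD.le
  obtain ⟨b, rfl⟩ : ∃ b : ℕ, u = b + 3 := ⟨(u - 3).toNat, by omega⟩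
  refine absurd h8 (not_lt.2 (pos_le ?_))
  clear * -
  ring_nf
  positivity

/-- second row of `PSL_m` -/
theorem eqM {D K v z : ℤ} (hD : 0 < D) (hK : 0 < K) (hv : 2 ≤ v) (hz : (v + 1) ^ 4 ≤ z)
    (h : D * (v * (z - 1)) = K * (z + v - 1)) (hgap : K < D * v → D ≤ 10 * (D * v - K)) : False := by
  have hz0 : 0 < z := lt_of_lt_of_le (by positivity) hz
  have h1 : z * (D * v - K) = D * v + K * (v - 1) := by linear_combination h
  have h2 : 0 < D * v - K := by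
    by_contra hcon
    have h3 : z * (D * v - K) ≤ 0 := mul_nonpos_of_nonneg_of_nonpos hz0.le (not_lt.1 hcon)
    have h4 : 0 < K * (v - 1) := mul_pos hK (by linarith)
    have h5 : 0 < D * v := mul_pos hD (by linarith)
    linarith
  have h4 := hgap (by linarith)
  have h5 : D * v + K * (v - 1) < D * v ^ 2 := by
    have : K * (v - 1) < D * v * (v - 1) := mul_lt_mul_of_pos_right (by linarith) (by linarith)
    nlinarith
  have h6 : D * (v + 1) ^ 4 ≤ 10 * (z * (D * v - K)) := by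
    calc D * (v + 1) ^ 4 ≤ D * z := mul_le_mul_of_nonneg_left hz hD.le
      _ = z * D := mul_comm _ _
      _ ≤ z * (10 * (D * v - K)) := mul_le_mul_of_nonneg_left h4 hz0.le
      _ = _ := by ring
  have h7 : D * (v + 1) ^ 4 < D * (10 * v ^ 2) := by
    rw [h1] at h6
    linarith
  have h8 := lt_of_mul_lt_mul_left h7 hD.le
  obtain ⟨b, rfl⟩ : ∃ b : ℕ, v = b + 2 := ⟨(v - 2).toNat, by omega⟩
  refine absurd h8 (not_lt.2 (pos_le ?_))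
  clear * -
  ring_nf
  positivity

/-- `PSU_m`, odd -/
theorem eqO {D K u z : ℤ} (hD : 0 < D) (hK : 0 < K) (hu : 2 ≤ u) (hz : u ^ 3 ≤ z) (hz2 : 61 ≤ u * z + 1)
    (h : D * (u * z + 1) = K * (z - u - 2)) (hgap : D * u < K → 19 * D ≤ 20 * (K - D * u)) : False := by
  have hz0 : 0 < z := lt_of_lt_of_le (by positivity) hz
  have h1 : z * (K - D * u) = D + K * (u + 2) := by linear_combination -h
  have h2 : 0 < K - D * u := by
    by_contra hcon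
    have h3 : z * (K - D * u) ≤ 0 := mul_nonpos_of_nonneg_of_nonpos hz0.le (not_lt.1 hcon)
    have h4 : 0 < K * (u + 2) := mul_pos hK (by linarith)
    linarith
  have h4 := hgap (by linarith)
  have h5 : (K - D * u) * (z - u - 2) = D * (u + 1) ^ 2 := by linear_combination -h
  have hzu : 0 < z - u - 2 := by
    by_contra hcon
    have h3 : (K - D * u) * (z - u - 2) ≤ 0 := mul_nonpos_of_nonneg_of_nonpos h2.le (not_lt.1 hcon)
    have h6 : 0 < D * (u + 1) ^ 2 := by positivity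
    linarith
  have h6 : D * (19 * (z - u - 2)) ≤ D * (20 * (u + 1) ^ 2) := by
    calc D * (19 * (z - u - 2)) = (19 * D) * (z - u - 2) := by ring
      _ ≤ (20 * (K - D * u)) * (z - u - 2) := mul_le_mul_of_nonneg_right h4 hzu.le
      _ = 20 * ((K - D * u) * (z - u - 2)) := by ring
      _ = _ := by rw [h5]; ring
  have h7 := le_of_mul_le_mul_left h6 hD
  rcases lt_or_ge u 3 with h8 | h8
  · obtain rfl : u = 2 := by omega
    norm_num at h7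
    omega
  · obtain ⟨b, rfl⟩ : ∃ b : ℕ, u = b + 3 := ⟨(u - 3).toNat, by omega⟩
    have h9 : (0 : ℤ) < 19 * (((b : ℤ) + 3) ^ 3 - (b + 3) - 2) - 20 * ((b : ℤ) + 3 + 1) ^ 2 := by
      clear * -
      ring_nf
      positivity
    linarith

section

variable {q : ℤ}

theorem D1_pos (hq : 3 ≤ q) : 0 < q ^ 4 - q ^ 3 - 2 := by
  obtain ⟨a, rfl⟩ : ∃ a : ℕ, q = a + 3 := ⟨(q - 3).toNat, by omega⟩
  clear * -; ring_nf; positivity

theorem D2_pos (hq : 3 ≤ q) : 0 < q ^ 6 - q - 2 := by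
  obtain ⟨a, rfl⟩ : ∃ a : ℕ, q = a + 3 := ⟨(q - 3).toNat, by omega⟩
  clear * -; ring_nf; positivity

theorem D3_pos (hq : 3 ≤ q) : 0 < q ^ 6 + q ^ 2 + q - 1 := by
  obtain ⟨a, rfl⟩ : ∃ a : ℕ, q = a + 3 := ⟨(q - 3).toNat, by omega⟩
  clear * -; ring_nf; positivity

theorem K_pos (hq : 3 ≤ q) : 0 < q ^ 7 + 1 := by positivity

theorem K1 : q ^ 7 + 1 = (q ^ 4 - q ^ 3 - 2) * (q ^ 3 + q ^ 2 + q + 1) + (3 * q ^ 3 + 2 * q ^ 2 + 2 * q + 3) := by ring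

theorem K2 : q ^ 7 + 1 = (q ^ 6 - q - 2) * q + (q + 1) ^ 2 := by ring

theorem K3 : q ^ 7 + 1 = (q ^ 6 + q ^ 2 + q - 1) * (q - 1) + (q ^ 6 + q ^ 2 + q - 1 - (q + 1) ^ 2 * (q - 1)) := by ring

theorem g1 (hq : 3 ≤ q) (hq4 : q ≠ 4) {u : ℤ} (h : q ^ 7 + 1 < (q ^ 4 - q ^ 3 - 2) * u) :
    q ^ 4 - q ^ 3 - 2 ≤ 10 * ((q ^ 4 - q ^ 3 - 2) * u - (q ^ 7 + 1)) := by
  rcases lt_or_ge q 5 with h5 | h5
  · obtain rfl : q = 3 := by omega
    norm_num at h ⊢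
    omega
  · have h1 := (gapE (D1_pos hq) K1 (by positivity) h).1
    obtain ⟨a, rfl⟩ : ∃ a : ℕ, q = a + 5 := ⟨(q - 5).toNat, by omega⟩
    have h2 : (0 : ℤ) ≤ 10 * (((a : ℤ) + 5) ^ 4 - (a + 5) ^ 3 - 2 - (3 * ((a : ℤ) + 5) ^ 3 + 2 * (a + 5) ^ 2 + 2 * (a + 5) + 3)) -
        (((a : ℤ) + 5) ^ 4 - (a + 5) ^ 3 - 2) := by
      clear * -; ring_nf; positivity
    linarith

theorem g2 (hq : 3 ≤ q) {u : ℤ} (h : q ^ 7 + 1 < (q ^ 6 - q - 2) * u) :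
    q ^ 6 - q - 2 ≤ 10 * ((q ^ 6 - q - 2) * u - (q ^ 7 + 1)) := by
  have h1 := (gapE (D2_pos hq) K2 (by positivity) h).1
  obtain ⟨a, rfl⟩ : ∃ a : ℕ, q = a + 3 := ⟨(q - 3).toNat, by omega⟩
  have h2 : (0 : ℤ) ≤ 10 * (((a : ℤ) + 3) ^ 6 - (a + 3) - 2 - ((a : ℤ) + 3 + 1) ^ 2) -
      (((a : ℤ) + 3) ^ 6 - (a + 3) - 2) := by
    clear * -; ring_nf; positivity
  linarith

theorem g3 (hq : 3 ≤ q) {u : ℤ} (hu : u ≠ q) (h : q ^ 7 + 1 < (q ^ 6 + q ^ 2 + q - 1) * u) :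
    q ^ 6 + q ^ 2 + q - 1 ≤ 10 * ((q ^ 6 + q ^ 2 + q - 1) * u - (q ^ 7 + 1)) := by
  have h0 : 0 ≤ q ^ 6 + q ^ 2 + q - 1 - (q + 1) ^ 2 * (q - 1) := by
    obtain ⟨a, rfl⟩ : ∃ a : ℕ, q = a + 3 := ⟨(q - 3).toNat, by omega⟩
    clear * -; ring_nf; positivity
  have h1 := (gapE (D3_pos hq) K3 h0 h).2
  have hD := D3_pos hq
  have h2 : (q ^ 6 + q ^ 2 + q - 1) * (q + 1) ≤ (q ^ 6 + q ^ 2 + q - 1) * u :=
    mul_le_mul_of_nonneg_left (by omega) hD.le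
  have h3 : (q ^ 6 + q ^ 2 + q - 1) * (q + 1) - (q ^ 7 + 1) = (q ^ 6 + q ^ 2 + q - 1) + (q + 1) ^ 2 * (q - 1) := by ring
  have h4 : 0 ≤ (q + 1) ^ 2 * (q - 1) := mul_nonneg (by positivity) (by omega)
  linarith

theorem o2 (hq : 3 ≤ q) {u : ℤ} (hu : u ≠ q) (h : (q ^ 6 - q - 2) * u < q ^ 7 + 1) :
    19 * (q ^ 6 - q - 2) ≤ 20 * (q ^ 7 + 1 - (q ^ 6 - q - 2) * u) := by
  have hD := D2_pos hq
  have hr : (q + 1) ^ 2 < q ^ 6 - q - 2 := by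
    obtain ⟨a, rfl⟩ : ∃ a : ℕ, q = a + 3 := ⟨(q - 3).toNat, by omega⟩
    refine pos_lt ?_
    clear * -; ring_nf; positivity
  obtain ⟨h1, h2⟩ := gapO hD K2 hr h
  have h3 : (q ^ 6 - q - 2) * 1 ≤ (q ^ 6 - q - 2) * (q - u) := mul_le_mul_of_nonneg_left (by omega) hD.le
  have h4 := sq_nonneg (q + 1)
  linarith

theorem o3 (hq : 3 ≤ q) {u : ℤ} (h : (q ^ 6 + q ^ 2 + q - 1) * u < q ^ 7 + 1) :
    19 * (q ^ 6 + q ^ 2 + q - 1) ≤ 20 * (q ^ 7 + 1 - (q ^ 6 + q ^ 2 + q - 1) * u) := by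
  have hD := D3_pos hq
  have hr : q ^ 6 + q ^ 2 + q - 1 - (q + 1) ^ 2 * (q - 1) < q ^ 6 + q ^ 2 + q - 1 := by
    have : 0 < (q + 1) ^ 2 * (q - 1) := mul_pos (by positivity) (by omega)
    linarith
  obtain ⟨h1, h2⟩ := gapO hD K3 hr h
  have h3 : 0 ≤ (q ^ 6 + q ^ 2 + q - 1) * (q - 1 - u) := mul_nonneg hD.le (by omega)
  have h4 : 20 * ((q + 1) ^ 2 * (q - 1)) ≤ q ^ 6 + q ^ 2 + q - 1 := by
    obtain ⟨a, rfl⟩ : ∃ a : ℕ, q = a + 3 := ⟨(q - 3).toNat, by omega⟩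
    refine pos_le ?_
    clear * -; ring_nf; positivity
  linarith

/-- `D1`, `PSU_m`, `m` odd -/
theorem o1 (hq : 3 ≤ q) (hq4 : q ≠ 4) {u z : ℤ} (hu : 2 ≤ u) (hz : u ^ 3 ≤ z) (hz2 : 61 ≤ u * z + 1)
    (h : (q ^ 4 - q ^ 3 - 2) * (u * z + 1) = (q ^ 7 + 1) * (z - u - 2)) : False := by
  have hD := D1_pos hq
  rcases lt_or_ge q 5 with h5 | h5
  · obtain rfl : q = 3 := by omega
    norm_num at h hD
    by_cases h42 : u = 42
    · subst h42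
      norm_num at hz
      omega
    · refine eqO (D := 52) (K := 2188) (by norm_num) (by norm_num) hu hz hz2 h fun h1 => ?_
      omega
  · by_cases hum : u = q ^ 3 + q ^ 2 + q + 1
    · have h6 : (3 * q ^ 3 + 2 * q ^ 2 + 2 * q + 3) * (z - u - 2) = (q ^ 4 - q ^ 3 - 2) * (u + 1) ^ 2 := by
        have hK := K1 (q := q)
        rw [← hum] at hK
        rw [hK] at h
        linear_combination -h
      have h7 : (3 * q ^ 3 + 2 * q ^ 2 + 2 * q + 3) * (u ^ 3 - u - 2) ≤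
          (3 * q ^ 3 + 2 * q ^ 2 + 2 * q + 3) * (z - u - 2) :=
        mul_le_mul_of_nonneg_left (by linarith) (by positivity)
      rw [h6, hum] at h7
      refine absurd h7 (not_le.2 (pos_lt ?_))
      obtain ⟨a, rfl⟩ : ∃ a : ℕ, q = a + 5 := ⟨(q - 5).toNat, by omega⟩
      clear * -; ring_nf; positivity
    · refine eqO hD (K_pos hq) hu hz hz2 h fun h1 => ?_
      have hr : 3 * q ^ 3 + 2 * q ^ 2 + 2 * q + 3 < q ^ 4 - q ^ 3 - 2 := by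
        obtain ⟨a, rfl⟩ : ∃ a : ℕ, q = a + 5 := ⟨(q - 5).toNat, by omega⟩
        refine pos_lt ?_
        clear * -; ring_nf; positivity
      obtain ⟨h2, h3⟩ := gapO hD K1 hr h1
      have h4 : (q ^ 4 - q ^ 3 - 2) * 1 ≤ (q ^ 4 - q ^ 3 - 2) * (q ^ 3 + q ^ 2 + q + 1 - u) :=
        mul_le_mul_of_nonneg_left (by omega) hD.le
      have h5 : 0 ≤ 3 * q ^ 3 + 2 * q ^ 2 + 2 * q + 3 := by positivity
      linarith

/-- `D3`, second row of `PSL_m`, `v = q` -/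
theorem m3q (hq : 3 ≤ q) (hq6 : q ≠ 6) {z : ℤ} (hz : (q + 1) ∣ z)
    (h : (q ^ 6 + q ^ 2 + q - 1) * (q * (z - 1)) = (q ^ 7 + 1) * (z + q - 1)) : False := by
  have h1 : z * (q + 1) * (q - 1) = q ^ 7 - q ^ 6 + q ^ 5 - q ^ 4 + q ^ 3 + q - 1 := by
    apply mul_left_cancel₀ (show q + 1 ≠ 0 by omega)
    linear_combination h
  have h2 : (q + 1) ∣ 7 := by
    have h3 : (7 : ℤ) = (q + 1) * (q ^ 6 - 2 * q ^ 5 + 3 * q ^ 4 - 4 * q ^ 3 + 5 * q ^ 2 - 5 * q + 6) -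
        (q ^ 7 - q ^ 6 + q ^ 5 - q ^ 4 + q ^ 3 + q - 1) := by ring
    rw [h3, ← h1]
    exact dvd_sub (dvd_mul_right _ _) ((Dvd.intro_left z rfl).mul_right _)
  have h3 := Int.le_of_dvd (by norm_num) h2
  have h4 : q = 3 ∨ q = 4 ∨ q = 5 := by omega
  rcases h4 with rfl | rfl | rfl <;> norm_num at h2

/-- `PSU_3` -/
theorem eqT {D K u : ℤ} (h : D * (u ^ 2 - u + 1) = K * (u - 2)) : (u - 2) * (K - D * (u + 1)) = 3 * D := by
  linear_combination -h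

theorem t2 (hq : 3 ≤ q) {u : ℤ} (hu : 9 ≤ u)
    (h : (q ^ 6 - q - 2) * (u ^ 2 - u + 1) = (q ^ 7 + 1) * (u - 2)) : False := by
  have hD := D2_pos hq
  have h1 := eqT h
  have h2 : 0 < q ^ 7 + 1 - (q ^ 6 - q - 2) * (u + 1) := by
    by_contra hcon
    have := mul_nonpos_of_nonneg_of_nonpos (show 0 ≤ u - 2 by omega) (not_lt.1 hcon)
    linarith
  have h3 : 7 * (q ^ 7 + 1 - (q ^ 6 - q - 2) * (u + 1)) ≤ 3 * (q ^ 6 - q - 2) := by
    rw [← h1]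
    exact mul_le_mul_of_nonneg_right (by omega) h2.le
  have hr : (q + 1) ^ 2 < q ^ 6 - q - 2 := by
    obtain ⟨a, rfl⟩ : ∃ a : ℕ, q = a + 3 := ⟨(q - 3).toNat, by omega⟩
    refine pos_lt ?_
    clear * -; ring_nf; positivity
  obtain ⟨h4, h5⟩ := gapO hD K2 hr (by linarith : (q ^ 6 - q - 2) * (u + 1) < q ^ 7 + 1)
  have h6 : q = u + 1 := by
    by_contra hne
    have h7 : (q ^ 6 - q - 2) * 1 ≤ (q ^ 6 - q - 2) * (q - (u + 1)) := mul_le_mul_of_nonneg_left (by omega) hD.le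
    have h8 := sq_nonneg (q + 1)
    linarith
  have h7 : (q - 3) * (q + 1) ^ 2 = 3 * (q ^ 6 - q - 2) := by
    rw [← h1, ← h5, ← h6]
    have : u - 2 = q - 3 := by omega
    rw [this]
    ring
  obtain ⟨a, rfl⟩ : ∃ a : ℕ, q = a + 3 := ⟨(q - 3).toNat, by omega⟩
  have h8 : (0 : ℤ) < 3 * (((a : ℤ) + 3) ^ 6 - (a + 3) - 2) - ((a : ℤ) + 3 - 3) * (a + 3 + 1) ^ 2 := by
    clear * -; ring_nf; positivity
  linarith

theorem t3 (hq : 3 ≤ q) {u : ℤ} (hu : 9 ≤ u)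
    (h : (q ^ 6 + q ^ 2 + q - 1) * (u ^ 2 - u + 1) = (q ^ 7 + 1) * (u - 2)) : False := by
  have hD := D3_pos hq
  have h1 := eqT h
  have h2 : 0 < q ^ 7 + 1 - (q ^ 6 + q ^ 2 + q - 1) * (u + 1) := by
    by_contra hcon
    have := mul_nonpos_of_nonneg_of_nonpos (show 0 ≤ u - 2 by omega) (not_lt.1 hcon)
    linarith
  have h3 : 7 * (q ^ 7 + 1 - (q ^ 6 + q ^ 2 + q - 1) * (u + 1)) ≤ 3 * (q ^ 6 + q ^ 2 + q - 1) := by
    rw [← h1]
    exact mul_le_mul_of_nonneg_right (by omega) h2.le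
  have h4 := o3 hq (by linarith : (q ^ 6 + q ^ 2 + q - 1) * (u + 1) < q ^ 7 + 1)
  linarith

theorem t1 (hq : 3 ≤ q) (hq4 : q ≠ 4) {u : ℤ} (hu : 9 ≤ u)
    (h : (q ^ 4 - q ^ 3 - 2) * (u ^ 2 - u + 1) = (q ^ 7 + 1) * (u - 2)) : q = 3 ∧ u = 41 := by
  have hD := D1_pos hq
  have h1 := eqT h
  have h2 : 0 < q ^ 7 + 1 - (q ^ 4 - q ^ 3 - 2) * (u + 1) := by
    by_contra hcon
    have := mul_nonpos_of_nonneg_of_nonpos (show 0 ≤ u - 2 by omega) (not_lt.1 hcon)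
    linarith
  have h3 : 7 * (q ^ 7 + 1 - (q ^ 4 - q ^ 3 - 2) * (u + 1)) ≤ 3 * (q ^ 4 - q ^ 3 - 2) := by
    rw [← h1]
    exact mul_le_mul_of_nonneg_right (by omega) h2.le
  rcases lt_or_ge q 5 with h5 | h5
  · obtain rfl : q = 3 := by omega
    norm_num at h2 h3
    exact ⟨rfl, by omega⟩
  · exfalso
    have hr : 3 * q ^ 3 + 2 * q ^ 2 + 2 * q + 3 < q ^ 4 - q ^ 3 - 2 := by
      obtain ⟨a, rfl⟩ : ∃ a : ℕ, q = a + 5 := ⟨(q - 5).toNat, by omega⟩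
      refine pos_lt ?_
      clear * -; ring_nf; positivity
    obtain ⟨h6, h7⟩ := gapO hD K1 hr (by linarith : (q ^ 4 - q ^ 3 - 2) * (u + 1) < q ^ 7 + 1)
    have h8 : q ^ 3 + q ^ 2 + q + 1 = u + 1 := by
      by_contra hne
      have h7 : (q ^ 4 - q ^ 3 - 2) * 1 ≤ (q ^ 4 - q ^ 3 - 2) * (q ^ 3 + q ^ 2 + q + 1 - (u + 1)) :=
        mul_le_mul_of_nonneg_left (by omega) hD.le
      have h8 : 0 ≤ 3 * q ^ 3 + 2 * q ^ 2 + 2 * q + 3 := by positivity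
      linarith
    rw [h8, sub_self, mul_zero, zero_add] at h7
    rw [← h7] at h1
    have h9 : u = q ^ 3 + q ^ 2 + q := by linarith
    rw [h9] at h1
    obtain ⟨a, rfl⟩ : ∃ a : ℕ, q = a + 5 := ⟨(q - 5).toNat, by omega⟩
    have h10 : (0 : ℤ) < (((a : ℤ) + 5) ^ 3 + (a + 5) ^ 2 + (a + 5) - 2) *
        (3 * ((a : ℤ) + 5) ^ 3 + 2 * (a + 5) ^ 2 + 2 * (a + 5) + 3) - 3 * (((a : ℤ) + 5) ^ 4 - (a + 5) ^ 3 - 2) := by
      clear * -; ring_nf; positivity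
    linarith

/-- `X = q⁵ - q² + 2`, `PSL_m(u)` -/
theorem eqL (hq : 3 ≤ q) {u z : ℤ} (hu : 2 ≤ u) (hz : z = u ^ 2 ∨ u ^ 3 ≤ z)
    (h : (q ^ 5 - q ^ 2 + 2) * (u * z - 1) = (q ^ 7 + 1) * (z + u - 2)) : False := by
  have hX : 0 < q ^ 5 - q ^ 2 + 2 := by
    obtain ⟨a, rfl⟩ : ∃ a : ℕ, q = a + 3 := ⟨(q - 3).toNat, by omega⟩
    clear * -; ring_nf; positivity
  have hK : q ^ 7 + 1 = (q ^ 5 - q ^ 2 + 2) * q ^ 2 + (q ^ 2 - 1) ^ 2 := by ring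
  have hz2 : u ^ 2 ≤ z := by
    rcases hz with hz | hz
    · exact hz.ge
    · exact le_trans (pow_le_pow_right₀ (by omega) (by norm_num)) hz
  have hzp : 0 < z + u - 2 := by nlinarith
  have h1 : ((q ^ 5 - q ^ 2 + 2) * u - (q ^ 7 + 1)) * (z + u - 2) = (q ^ 5 - q ^ 2 + 2) * (u - 1) ^ 2 := by
    linear_combination h
  have h2 : 0 < (q ^ 5 - q ^ 2 + 2) * u - (q ^ 7 + 1) := by
    by_contra hcon
    have h3 := mul_nonpos_of_nonpos_of_nonneg (not_lt.1 hcon) hzp.le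
    have h4 : 0 < (q ^ 5 - q ^ 2 + 2) * (u - 1) ^ 2 := mul_pos hX (pow_pos (by omega) 2)
    linarith
  have hr : (q ^ 2 - 1) ^ 2 ≤ q ^ 5 - q ^ 2 + 2 := by
    obtain ⟨a, rfl⟩ : ∃ a : ℕ, q = a + 3 := ⟨(q - 3).toNat, by omega⟩
    refine pos_le ?_
    clear * -; ring_nf; positivity
  obtain ⟨h3, h4⟩ := gapE hX hK (by positivity) (by linarith : q ^ 7 + 1 < (q ^ 5 - q ^ 2 + 2) * u)
  have h5 : u = q ^ 2 + 1 := by
    by_contra hne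
    have h6 : (q ^ 5 - q ^ 2 + 2) * (q ^ 2 + 2) ≤ (q ^ 5 - q ^ 2 + 2) * u := mul_le_mul_of_nonneg_left (by omega) hX.le
    have h7 : (q ^ 5 - q ^ 2 + 2) ≤ (q ^ 5 - q ^ 2 + 2) * u - (q ^ 7 + 1) := by linarith
    have h8 := mul_le_mul_of_nonneg_right h7 hzp.le
    rw [h1] at h8
    have h9 := le_of_mul_le_mul_left h8 hX
    nlinarith
  subst h5
  have h6 : (q ^ 5 - q ^ 2 + 2) * (q ^ 2 + 1) - (q ^ 7 + 1) = (q ^ 5 - q ^ 2 + 2) - (q ^ 2 - 1) ^ 2 := by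
    rw [hK]; ring
  rw [h6] at h1
  obtain ⟨a, rfl⟩ : ∃ a : ℕ, q = a + 3 := ⟨(q - 3).toNat, by omega⟩
  rcases hz with hz | hz
  · rw [hz] at h1
    have h7 : (0 : ℤ) < (((a : ℤ) + 3) ^ 5 - (a + 3) ^ 2 + 2) * (((a : ℤ) + 3) ^ 2 + 1 - 1) ^ 2 -
        ((((a : ℤ) + 3) ^ 5 - (a + 3) ^ 2 + 2) - (((a : ℤ) + 3) ^ 2 - 1) ^ 2) *
          ((((a : ℤ) + 3) ^ 2 + 1) ^ 2 + (((a : ℤ) + 3) ^ 2 + 1) - 2) := by
      clear * -; ring_nf; positivity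
    linarith
  · have h8 : ((((a : ℤ) + 3) ^ 5 - (a + 3) ^ 2 + 2) - (((a : ℤ) + 3) ^ 2 - 1) ^ 2) *
        ((((a : ℤ) + 3) ^ 2 + 1) ^ 3 + (((a : ℤ) + 3) ^ 2 + 1) - 2) ≤
        ((((a : ℤ) + 3) ^ 5 - (a + 3) ^ 2 + 2) - (((a : ℤ) + 3) ^ 2 - 1) ^ 2) *
        (z + (((a : ℤ) + 3) ^ 2 + 1) - 2) :=
      mul_le_mul_of_nonneg_left (by linarith) (by linarith)
    have h7 : (0 : ℤ) < ((((a : ℤ) + 3) ^ 5 - (a + 3) ^ 2 + 2) - (((a : ℤ) + 3) ^ 2 - 1) ^ 2) *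
          ((((a : ℤ) + 3) ^ 2 + 1) ^ 3 + (((a : ℤ) + 3) ^ 2 + 1) - 2) -
          (((a : ℤ) + 3) ^ 5 - (a + 3) ^ 2 + 2) * (((a : ℤ) + 3) ^ 2 + 1 - 1) ^ 2 := by
      clear * -; ring_nf; positivity
    linarith

end

end Cfsg.Agent.R2.Spec.X7.U7
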