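import Cfsg.Agent.R2.Spec.X7.U7.Num

/-!
# The numerical conditions for `PSU_7(q)`, `q` odd: conclusion (helper27)
-/

set_option autoImplicit false

namespace Cfsg.Agent.R2.Spec.X7

namespace UNum

variable {p q c w R : ℕ} (h : UNum p q c w R)

include h

/-- **the numerical conditions** -/
theorem nc : NC p R (WU p q c) where
  hp := h.hp
  c1093 := fun hR => by rcases h.big with ⟨-, h1⟩ | ⟨-, h1⟩ | ⟨-, -, h1⟩ <;> omega
  n13 := h.not_13
  big := by rcases h.big with ⟨-, h1⟩ | ⟨-, h1⟩ | ⟨-, -, h1⟩ <;> omega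
  upper := fun E _ hW => h.le_upper hW
  near := by
    intro E hE0 hW hne h1 h2
    have hR := h.R547
    have h6 := h.w_le'
    have hw := h.wZ
    rcases h.spec hW (by omega) hne with ⟨D, hD, h4⟩ | h4
    · have h5 := (h.DU_bd hD).1
      have h7 : (w : ℤ) * ((E : ℤ) - R) ≤ w * 2 := mul_le_mul_of_nonneg_left (by omega) hw.le
      linarith
    · have h5 := h.X_bd.1
      have h7 : (w : ℤ) * ((R : ℤ) - E) ≤ w * 2 := mul_le_mul_of_nonneg_left (by omega) hw.le
      linarith
  neg := by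
    intro E E' hE0 hW hW' h7 h1 h2
    exfalso
    have h3 := h.spec_below hW (by omega) h2
    have h4 := h.spec_below hW' h7 (by omega)
    have h5 := mul_left_cancel₀ h.wZ.ne' (h3.trans h4.symm)
    omega
  posi := by
    intro E E' hE0 hW hW' h1 h2
    obtain ⟨D, hD, h4⟩ := h.spec_above hW (by omega)
    obtain ⟨D', hD', h4'⟩ := h.spec_above hW' h2
    have hw := h.wZ
    have hlt : D' < D := by
      rw [← h4, ← h4']
      exact mul_lt_mul_of_pos_left (by omega) hw
    rcases h.DU_pair hD hD' hlt with ⟨h5, h6⟩ | h5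
    · left
      have h7 := (h.DU_bd hD).2.2.2.1
      constructor
      · rw [← h4, ← h4'] at h5
        exact le_of_mul_le_mul_left (by linarith : (w : ℤ) * (4 * ((E : ℤ) - R)) ≤ w * (5 * (E' - R))) hw
      · have hq1 : (q : ℤ) + 1 ≤ w := by exact_mod_cast h.w_ge
        have hww : (0 : ℤ) < w * w := mul_pos hw hw
        refine le_of_mul_le_mul_left (?_ : (w : ℤ) * w * (((E : ℤ) - E') * (E - R)) ≤ w * w * (2 * R)) hww
        have e1 : (w : ℤ) * w * (((E : ℤ) - E') * (E - R)) = (w * ((E : ℤ) - R) - w * (E' - R)) * (w * (E - R)) := by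
          ring
        have e2 : (w : ℤ) * w * (2 * R) = w * (2 * ((q : ℤ) ^ 7 + 1)) := by
          rw [← h.hRZ]; ring
        rw [e1, h4, h4', h6, e2]
        have h8 : ((q : ℤ) + 1) ^ 2 * D = ((q : ℤ) + 1) * (((q : ℤ) + 1) * D) := by ring
        rw [h8]
        refine (mul_le_mul_of_nonneg_left h7 (by positivity)).trans ?_
        exact mul_le_mul_of_nonneg_right hq1 (by positivity)
    · right
      rw [← h4, ← h4'] at h5
      exact le_of_mul_le_mul_left (by linarith : (w : ℤ) * (10 * ((E' : ℤ) - R)) ≤ w * (E - R)) hw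
  opp := by
    intro E E' _ hW hW' h7 h1 h2
    obtain ⟨D, hD, h4⟩ := h.spec_above hW h2
    have h4' := h.spec_below hW' h7 h1
    have hw := h.wZ
    rcases (h.DU_bd hD).2.2.1 with h5 | h5
    · left
      rw [← h4, ← h4'] at h5
      exact le_of_mul_le_mul_left (by linarith : (w : ℤ) * (3 * ((R : ℤ) - E')) ≤ w * (E - R)) hw
    · right
      rw [← h4, ← h4'] at h5
      exact le_of_mul_le_mul_left (by linarith : (w : ℤ) * (4 * ((E : ℤ) - R)) ≤ w * (R - E')) hw
  lT := by
    intro u M κ E hpu hu hM h1 h2 hE0 hW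
    exfalso
    have hw := h.wZ
    obtain ⟨z, hz⟩ : ∃ z, u ^ (M - 1) = z := ⟨_, rfl⟩
    have hz2 : u ^ 2 ≤ z := by rw [← hz]; exact Nat.pow_le_pow_right (by omega) (by omega)
    have hz3 : z = u ^ 2 ∨ u ^ 3 ≤ z := by
      rcases Nat.eq_or_lt_of_le hM with h3 | h3
      · left; rw [← hz, ← h3]
      · right; rw [← hz]; exact Nat.pow_le_pow_right (by omega) (by omega)
    have huM : u ^ M = u * z := by rw [← hz, ← pow_succ']; congr 1; omega
    rw [huM] at h1
    rw [hz] at h2
    have hz0 : 9 ≤ z := le_trans (by nlinarith) hz2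
    have h1Z : (R : ℤ) * κ = (u : ℤ) * z - 1 := by
      have h3 : 1 ≤ u * z := Nat.mul_pos (by omega) (by omega)
      have := congrArg (fun x : ℕ => (x : ℤ)) h1
      push_cast [Nat.cast_sub h3] at this
      exact this
    have h2Z : (κ : ℤ) * E = ((z : ℤ) - 1) * (u - 1) := by
      have := congrArg (fun x : ℕ => (x : ℤ)) h2
      push_cast [Nat.cast_sub (show 1 ≤ z by omega), Nat.cast_sub (show 1 ≤ u by omega)] at this
      exact this
    have hκ : (0 : ℤ) < κ := by
      rcases Nat.eq_zero_or_pos κ with h3 | h3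
      · rw [h3] at h1Z
        have : (3 : ℤ) * 9 ≤ u * z := by exact_mod_cast Nat.mul_le_mul hu hz0
        push_cast at h1Z
        linarith
      · exact_mod_cast h3
    have h4Z : (κ : ℤ) * ((R : ℤ) - E) = z + u - 2 := by linear_combination h1Z - h2Z
    have hER : E < R := by
      have h5 : (0 : ℤ) < (κ : ℤ) * ((R : ℤ) - E) := by rw [h4Z]; omega
      have := pos_of_mul_pos_nat' h5
      omega
    have huz : (u : ℤ) ^ 2 ≤ z := by exact_mod_cast hz2
    have hu2 : (2 : ℤ) ≤ u := by omega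
    have hzz3 : (z : ℤ) = (u : ℤ) ^ 2 ∨ (u : ℤ) ^ 3 ≤ z := by
      rcases hz3 with h6 | h6
      · left; exact_mod_cast h6
      · right; exact_mod_cast h6
    have fin : (w : ℤ) * ((R : ℤ) - E) = (q : ℤ) ^ 5 - (q : ℤ) ^ 2 + 2 → False := by
      intro h5
      exact U7.eqL h.qZ hu2 hzz3 (cross h5 h.hRZ h1Z h4Z)
    rcases Nat.eq_or_lt_of_le hu with hu3 | hu4
    · -- `u = 3`
      have hp3 : p ≠ 3 := by
        rintro rfl
        exact hpu (hu3 ▸ dvd_rfl)
      obtain ⟨hq3, hq9⟩ := h.ne39 hp3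
      rw [← hu3] at h1Z h2Z
      push_cast at h1Z h2Z
      have hz30 : 11 ≤ z := by
        have h5 := h.R547
        have h6 : (R : ℤ) * 1 ≤ R * κ := mul_le_mul_of_nonneg_left (by omega) (by positivity)
        omega
      have h8E : 5 * R ≤ 8 * E := by
        have h5 : (κ : ℤ) * (5 * R) ≤ κ * (8 * E) := by
          have h6 : (κ : ℤ) * (8 * E) - κ * (5 * R) = z - 11 := by linear_combination 8 * h2Z - 5 * h1Z
          omega
        have h6 := le_of_mul_le_mul_left h5 hκ
        exact_mod_cast h6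
      have hs := h.small3 hq3
      have h8E' : 5 * R < 8 * E ∨ 5 * R = 8 * E := by omega
      have h2E : R < 2 * E := by
        have := h.R547
        omega
      have hsE : q ^ 4 * (q + 1) < E := by
        rcases Nat.lt_or_ge (q ^ 4 * (q + 1)) E with h9 | h9
        · exact h9
        · exfalso
          have h10 : 8 * (q ^ 4 * (q + 1)) = 5 * R := by omega
          have h11 : 5 * (8 * (q ^ 4 * (q + 1))) = 25 * R := by omega
          by_cases hq13 : q = 13
          · rw [hq13] at h10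
            rcases h.big with ⟨h12, -⟩ | ⟨-, h12⟩ | ⟨-, h12, -⟩
            · omega
            · rw [h12] at h10; norm_num at h10
            · exact h12 hq13
          · have := h.small2 hq3 hq13
            have := h.R547
            omega
      rcases h.spec2 hW hsE h2E (by omega) with ⟨D, hD, h5⟩ | h5 | ⟨D, hD, h5⟩
      · have := h.above hD h5
        omega
      · exact fin h5
      · exfalso
        have h6 : (κ : ℤ) * ((2 * E : ℤ) - R) = z - 3 := by linear_combination 2 * h2Z - h1Z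
        have hcr := cross h5 h.hRZ h1Z h6
        have hq5 : 5 ≤ q := by
          have := h.q3
          have := h.q_odd
          omega
        have h7 := (h.DU_bd hD).2.2.2.2 (by exact_mod_cast hq5)
        have h8 : (0 : ℤ) < 3 * z - 1 := by omega
        have h9 := mul_lt_mul_of_pos_right h7 h8
        have h10 : (0 : ℤ) < (q : ℤ) ^ 7 + 1 := by positivity
        have h11 : ((q : ℤ) ^ 7 + 1) * (13 * (z - 3)) < ((q : ℤ) ^ 7 + 1) * (3 * (3 * z - 1)) := by linarith
        have h12 := lt_of_mul_lt_mul_left h11 h10.le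
        omega
    · apply fin
      apply h.spec_below hW _ hER
      have h5 : (κ : ℤ) * (7 * R) < κ * (10 * E) := by
        have h6 : (κ : ℤ) * (10 * E) - κ * (7 * R) = (3 * u - 10) * z - 10 * u + 17 := by
          linear_combination 10 * h2Z - 7 * h1Z
        have h7 : (0 : ℤ) < (3 * (u : ℤ) - 10) * z - 10 * u + 17 := by
          have h8 : (3 * (u : ℤ) - 10) * (u ^ 2) ≤ (3 * (u : ℤ) - 10) * z :=
            mul_le_mul_of_nonneg_left huz (by omega)
          obtain ⟨a, rfl⟩ : ∃ a, u = a + 4 := ⟨u - 4, by omega⟩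
          have h9 : (0 : ℤ) < (3 * ((a + 4 : ℕ) : ℤ) - 10) * ((a + 4 : ℕ) : ℤ) ^ 2 - 10 * ((a + 4 : ℕ) : ℤ) + 17 := by
            clear * -
            push_cast
            ring_nf
            positivity
          linarith
        linarith
      have h6 := lt_of_mul_lt_mul_left h5 hκ.le
      exact_mod_cast h6
  two := by
    intro z E hz h1 h2 hW
    have hR := h.R547
    have h3 := h.spec_below hW (by omega) (by omega)
    have h4 := h.X_bd.2
    have h5 : 4 * ((R : ℤ) - E) = R + 9 := by omega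
    have h6 : 4 * ((q : ℤ) ^ 5 - (q : ℤ) ^ 2 + 2) = ((q : ℤ) ^ 7 + 1) + 9 * w := by
      rw [← h3, ← h.hRZ]
      linear_combination (w : ℤ) * h5
    have := sq_nonneg ((q : ℤ) + 1)
    have := h.wZ
    linarith
  mT := by
    intro v M E hv hM h1 h2 hE0 hW
    obtain ⟨z, hz⟩ : ∃ z, (v + 1) ^ M = z := ⟨_, rfl⟩
    have hz4 : (v + 1) ^ 4 ≤ z := by rw [← hz]; exact Nat.pow_le_pow_right (by omega) hM
    have hz1 : 1 ≤ z := le_trans (Nat.one_le_pow _ _ (by omega)) hz4
    have hzd : (v + 1) ∣ z := by rw [← hz]; exact dvd_pow_self _ (by omega)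
    have e1 : (v + 1) ^ (M + 1) = (v + 1) * z := by rw [← hz, pow_succ']
    rw [hz] at h1
    rw [e1] at h2
    have h1Z : (R : ℤ) * v = z - 1 := by
      have := congrArg (fun x : ℕ => (x : ℤ)) h1
      push_cast [Nat.cast_sub hz1] at this
      exact this
    have h2Z : (E : ℤ) * (v : ℤ) ^ 2 = ((v : ℤ) + 1) * z - 1 := by
      have h3 : 1 ≤ (v + 1) * z := Nat.mul_pos (by omega) (by omega)
      have := congrArg (fun x : ℕ => (x : ℤ)) h2
      push_cast [Nat.cast_sub h3] at this
      exact this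
    have h3Z : (R : ℤ) * (v : ℤ) ^ 2 = (v : ℤ) * (z - 1) := by linear_combination (v : ℤ) * h1Z
    have h4Z : (v : ℤ) ^ 2 * ((E : ℤ) - R) = z + v - 1 := by linear_combination h2Z - h3Z
    have hv2 : (0 : ℤ) < (v : ℤ) ^ 2 := by positivity
    have hRE : R < E := by
      by_contra hcon
      have h5 : (v : ℤ) ^ 2 * ((E : ℤ) - R) ≤ 0 := mul_nonpos_of_nonneg_of_nonpos hv2.le (by omega)
      rw [h4Z] at h5
      omega
    rcases Nat.eq_or_lt_of_le hv with hv1 | hv1
    · have h5 := h.le_upper hW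
      rw [← hv1] at h1Z h2Z
      push_cast at h1Z h2Z
      omega
    · obtain ⟨D, hD, h5⟩ := h.spec_above hW hRE
      have hcr := cross h5 h.hRZ h3Z h4Z
      have hzz : ((v : ℤ) + 1) ^ 4 ≤ z := by exact_mod_cast hz4
      have hv2' : (2 : ℤ) ≤ v := by exact_mod_cast hv1
      have hK := U7.K_pos h.qZ
      rcases hD with rfl | rfl | ⟨-, rfl⟩
      · exact U7.eqM (U7.D1_pos h.qZ) hK hv2' hzz hcr (U7.g1 h.qZ h.q4)
      · exact U7.eqM (U7.D2_pos h.qZ) hK hv2' hzz hcr (U7.g2 h.qZ)
      · by_cases hvq : (v : ℤ) = q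
        · rw [hvq] at hcr
          refine U7.m3q h.qZ ?_ ?_ hcr
          · have := h.q_odd
            omega
          · rw [← hvq]
            exact_mod_cast hzd
        · exact U7.eqM (U7.D3_pos h.qZ) hK hv2' hzz hcr (U7.g3 h.qZ hvq)
  uE := by
    intro u M κ E hpu hu hM h1 h2 hE0 hW
    obtain ⟨z, hz⟩ : ∃ z, u ^ (M - 1) = z := ⟨_, rfl⟩
    have huM : u ^ M = u * z := by rw [← hz, ← pow_succ']; congr 1; omega
    have hz5 : u ^ 5 ≤ z := by rw [← hz]; exact Nat.pow_le_pow_right (by omega) (by omega)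
    have hz1 : 1 ≤ z := le_trans (Nat.one_le_pow _ _ (by omega)) hz5
    rw [huM] at h1
    rw [hz] at h2
    have h1Z : (R : ℤ) * κ = (u : ℤ) * z - 1 := by
      have h3 : 1 ≤ u * z := Nat.mul_pos (by omega) (by omega)
      have := congrArg (fun x : ℕ => (x : ℤ)) h1
      push_cast [Nat.cast_sub h3] at this
      exact this
    have h2Z : (κ : ℤ) * E = ((z : ℤ) + 1) * (u + 1) := by
      have := congrArg (fun x : ℕ => (x : ℤ)) h2
      push_cast at this
      exact this
    have h4Z : (κ : ℤ) * ((E : ℤ) - R) = z + u + 2 := by linear_combination h2Z - h1Z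
    have hRE : R < E := by
      have h5 : (0 : ℤ) < (κ : ℤ) * ((E : ℤ) - R) := by rw [h4Z]; positivity
      have := pos_of_mul_pos_nat' h5
      omega
    obtain ⟨D, hD, h5⟩ := h.spec_above hW hRE
    have hcr := cross h5 h.hRZ h1Z h4Z
    have hzz : (u : ℤ) ^ 5 ≤ z := by exact_mod_cast hz5
    have hu2 : (2 : ℤ) ≤ u := by exact_mod_cast hu
    obtain ⟨a, ha⟩ : ∃ a : ℕ, q = a + 3 := ⟨q - 3, by have := h.q3; omega⟩
    rcases hD with rfl | rfl | ⟨-, rfl⟩
    · refine U7.eqE (U7.D1_pos h.qZ) ?_ hu2 hzz hcr (U7.g1 h.qZ h.q4)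
      rw [ha]; push_cast
      exact pos_le (by clear * -; ring_nf; positivity)
    · refine U7.eqE (U7.D2_pos h.qZ) ?_ hu2 hzz hcr (U7.g2 h.qZ)
      rw [ha]; push_cast
      exact pos_le (by clear * -; ring_nf; positivity)
    · refine U7.eqE (U7.D3_pos h.qZ) ?_ hu2 hzz hcr (U7.g3 h.qZ (h.ne_q hpu))
      rw [ha]; push_cast
      exact pos_le (by clear * -; ring_nf; positivity)
  uO := by
    intro u M κ E hpu hu hM hκ0 h1 h2 hE0 hW
    obtain ⟨z, hz⟩ : ∃ z, u ^ (M - 1) = z := ⟨_, rfl⟩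
    have huM : u ^ M = u * z := by rw [← hz, ← pow_succ']; congr 1; omega
    have hz3 : u ^ 3 ≤ z := by rw [← hz]; exact Nat.pow_le_pow_right (by omega) (by omega)
    have hz1 : 1 ≤ z := le_trans (Nat.one_le_pow _ _ (by omega)) hz3
    rw [huM] at h1
    rw [hz] at h2
    have h1Z : (R : ℤ) * κ = (u : ℤ) * z + 1 := by exact_mod_cast h1
    have h2Z : (κ : ℤ) * E = ((z : ℤ) - 1) * (u + 1) := by
      have := congrArg (fun x : ℕ => (x : ℤ)) h2
      push_cast [Nat.cast_sub hz1] at this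
      exact this
    have h4Z : (κ : ℤ) * ((E : ℤ) - R) = z - u - 2 := by linear_combination h2Z - h1Z
    have hzu : (0 : ℤ) < z - u - 2 := by
      have h5 : u + 3 ≤ u ^ 3 := by
        obtain ⟨a, rfl⟩ : ∃ a, u = a + 2 := ⟨u - 2, by omega⟩
        have : (a + 2) ^ 3 = a ^ 3 + 6 * a ^ 2 + 12 * a + 8 := by ring
        rw [this]
        have := Nat.zero_le (a ^ 3)
        have := Nat.zero_le (a ^ 2)
        omega
      omega
    have hRE : R < E := by
      have h5 : (0 : ℤ) < (κ : ℤ) * ((E : ℤ) - R) := by rw [h4Z]; exact hzu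
      have := pos_of_mul_pos_nat' h5
      omega
    obtain ⟨D, hD, h5⟩ := h.spec_above hW hRE
    have hcr := cross h5 h.hRZ h1Z h4Z
    refine h.typeO hD hpu hu hz3 ?_ hcr
    have h6 : R * 1 ≤ R * κ := Nat.mul_le_mul_left _ hκ0
    have := h.R547
    omega
  uT := by
    intro u g E hu h1 h2 hE0 hW
    have h4Z : (g : ℤ) * ((E : ℤ) - R) = u - 2 := by linear_combination h2 - h1
    have hRE : R < E := by
      have h5 : (0 : ℤ) < (g : ℤ) * ((E : ℤ) - R) := by rw [h4Z]; omega
      have := pos_of_mul_pos_nat' h5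
      omega
    obtain ⟨D, hD, h5⟩ := h.spec_above hW hRE
    have hcr := cross h5 h.hRZ h1 h4Z
    have hu9 : (9 : ℤ) ≤ u := by exact_mod_cast hu
    rcases hD with rfl | rfl | ⟨-, rfl⟩
    · obtain ⟨h6, h7⟩ := U7.t1 h.qZ h.q4 hu9 hcr
      have h8 : q = 3 := by exact_mod_cast h6
      refine ⟨?_, by exact_mod_cast h7⟩
      rcases h.big with ⟨-, h9⟩ | ⟨h9, -⟩ | ⟨h9, -⟩ <;> omega
    · exact (U7.t2 h.qZ hu9 hcr).elim
    · exact (U7.t3 h.qZ hu9 hcr).elim
  mO := by
    intro u m E hpu hu hm hme h1 h2 hE0 hW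
    have hR := h.R547
    obtain ⟨k, hk⟩ := hme
    rcases h.big with ⟨hq, hRv⟩ | ⟨hq, hRv⟩ | ⟨hq5, hq13, hRv⟩
    · -- `q = 3`
      have h3 : (u ^ k) ^ 2 = 1093 := by
        rw [← pow_mul, show k * 2 = m by omega]
        omega
      have h4 : 33 < u ^ k := by
        by_contra hcon
        have : (u ^ k) ^ 2 ≤ 33 ^ 2 := Nat.pow_le_pow_left (by omega) 2
        omega
      have h5 : 34 ^ 2 ≤ (u ^ k) ^ 2 := Nat.pow_le_pow_left h4 2
      omega
    · have h3 : (u ^ k) ^ 2 = 1280581 := by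
        rw [← pow_mul, show k * 2 = m by omega]
        omega
      have h4 : 1131 < u ^ k := by
        by_contra hcon
        have : (u ^ k) ^ 2 ≤ 1131 ^ 2 := Nat.pow_le_pow_left (by omega) 2
        omega
      have h5 : 1132 ^ 2 ≤ (u ^ k) ^ 2 := Nat.pow_le_pow_left h4 2
      omega
    · have hq3 : q ≠ 3 := by omega
      obtain ⟨z, hz⟩ : ∃ z, u ^ (m - 1) = z := ⟨_, rfl⟩
      have huM : u ^ m = u * z := by rw [← hz, ← pow_succ']; congr 1; omega
      have hz3 : u ^ 3 ≤ z := by rw [← hz]; exact Nat.pow_le_pow_right (by omega) (by omega)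
      rw [huM] at h1
      rw [hz] at h2
      have hz1 : 9 * u ≤ z := by
        refine le_trans ?_ hz3
        calc 9 * u = 3 ^ 2 * u := by norm_num
          _ ≤ u ^ 2 * u := Nat.mul_le_mul_right _ (Nat.pow_le_pow_left hu 2)
          _ = _ := by ring
      have h4 : 4 * E + u + 1 = u * z + z := by
        obtain ⟨y, hy⟩ : ∃ y, z = y + 1 := ⟨z - 1, by omega⟩
        rw [h2, hy, Nat.add_sub_cancel]
        ring
      have h3z : 3 * z ≤ u * z := Nat.mul_le_mul_right _ hu
      have hs2 := h.small2 hq3 hq13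
      rcases h.spec2 hW (by omega) (by omega) (by omega) with ⟨D, hD, h5⟩ | h5 | ⟨D, hD, h5⟩
      · have := h.above hD h5
        omega
      · have h6 := h.X_bd.2
        have h8 : (R : ℤ) ≤ 3 * ((R : ℤ) - E) := by omega
        have h9 := mul_le_mul_of_nonneg_left h8 h.wZ.le
        have h10 := sq_nonneg ((q : ℤ) + 1)
        have h11 : (w : ℤ) * (3 * ((R : ℤ) - E)) = 3 * ((q : ℤ) ^ 5 - (q : ℤ) ^ 2 + 2) := by rw [← h5]; ring
        rw [h.hRZ, h11] at h9
        have h12 : (0 : ℤ) < (q : ℤ) ^ 7 + 1 := by positivity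
        linarith
      · have h1Z : (R : ℤ) * 2 = (u : ℤ) * z + 1 := by
          have : R * 2 = u * z + 1 := by omega
          exact_mod_cast this
        have h6Z : (2 : ℤ) * ((2 * E : ℤ) - R) = z - u - 2 := by
          have h7 : (4 : ℤ) * E + u + 1 = u * z + z := by exact_mod_cast h4
          linear_combination h7 - h1Z
        have hcr := cross h5 h.hRZ h1Z h6Z
        exact h.typeO hD hpu (by omega) hz3 (by omega) hcr
  d3 := by
    intro E hp3 h1 hW
    have hR := h.R547
    obtain ⟨hq3, hq9⟩ := h.ne39 hp3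
    obtain ⟨D, hD, h5⟩ := h.spec_above hW (by omega)
    have h6 := h.w_le'
    have h7 : 9 * D = ((q : ℤ) ^ 7 + 1) - 25 * w := by
      rw [← h5, ← h.hRZ]
      linear_combination (w : ℤ) * h1
    have h3 := h.q3
    have ho := h.q_odd
    have hw := h.wZ
    have hcase : q = 5 ∨ q = 7 ∨ 11 ≤ q := by omega
    rcases hcase with hq | hq | hq
    · rcases hD with rfl | rfl | ⟨-, rfl⟩ <;> rw [hq] at h7 h6 <;> norm_num at h7 h6 <;> omega
    · rcases hD with rfl | rfl | ⟨-, rfl⟩ <;> rw [hq] at h7 h6 <;> norm_num at h7 h6 <;> omega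
    · have h8 := h.DU_9 hq hD
      linarith
  d5 := by
    intro E h1 hW
    have hR := h.R547
    obtain ⟨D, hD, h5⟩ := h.spec_above hW (by omega)
    have h7 : 5 * D = ((q : ℤ) ^ 7 + 1) + 9 * w := by
      rw [← h5, ← h.hRZ]
      linear_combination (w : ℤ) * h1
    have hw := h.wZ
    have h3 := h.q3
    have ho := h.q_odd
    have hq : q = 3 ∨ q = 5 ∨ 7 ≤ q := by omega
    have hww := h.hw
    have hc := h.hc
    rcases hq with hq | hq | hq
    · rw [hq] at hc hww
      norm_num at hc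
      rw [hc] at hww
      norm_num at hww
      rw [hww] at h7
      rcases hD with rfl | rfl | ⟨-, rfl⟩ <;> rw [hq] at h7 <;> norm_num at h7
    · rw [hq] at hc hww
      norm_num at hc
      rw [hc] at hww
      norm_num at hww
      rw [hww] at h7
      rcases hD with rfl | rfl | ⟨-, rfl⟩ <;> rw [hq] at h7 <;> norm_num at h7
    · have := h.DU_5 hq hD
      linarith
  p3 := by
    intro E hp3 h1 hW
    have hR := h.R547
    obtain ⟨hq3, hq9⟩ := h.ne39 hp3
    have hw := h.wZ
    have h3 := h.q3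
    have ho := h.q_odd
    have hs := h.small3 hq3
    rcases h.spec2 hW (by omega) (by omega) (by omega) with ⟨D, hD, h5⟩ | h5 | ⟨D, hD, h5⟩
    · have := h.above hD h5
      omega
    · have h6 := h.X_bd.2
      have h7 : 3 * ((R : ℤ) - E) = R - 4 := by omega
      have h8 : 3 * ((q : ℤ) ^ 5 - (q : ℤ) ^ 2 + 2) = ((q : ℤ) ^ 7 + 1) - 4 * w := by
        rw [← h5, ← h.hRZ]
        linear_combination (w : ℤ) * h7
      have h9 := h.w_le'
      have h10 := h.X_bd.1
      have h11 := sq_nonneg ((q : ℤ) + 1)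
      linarith
    · have h6 := (h.DU_bd hD).2.2.2.2 (by omega)
      have h7 : 3 * ((2 * E : ℤ) - R) = R + 8 := by omega
      have h8 : 3 * D = ((q : ℤ) ^ 7 + 1) + 8 * w := by
        rw [← h5, ← h.hRZ]
        linear_combination (w : ℤ) * h7
      have h10 : (0 : ℤ) < (q : ℤ) ^ 7 + 1 := by positivity
      linarith
  half := by
    intro E hRp h1 hW
    have hR := h.R547
    rcases h.big with ⟨hq, hRv⟩ | ⟨hq, hRv⟩ | ⟨hq5, hq13, hRv⟩
    · exact Or.inr (Or.inr hRv)
    · exfalso
      rw [hRv] at hRp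
      revert hRp
      norm_num
    · exfalso
      have hs2 := h.small2 (by omega) hq13
      rcases h.spec2 hW (by omega) (by omega) (by omega) with ⟨D, hD, h5⟩ | h5 | ⟨D, hD, h5⟩
      · have := h.above hD h5
        omega
      · have h6 := h.X_bd.2
        have h7 : 2 * ((R : ℤ) - E) = R - 1 := by omega
        have h8 : 2 * ((q : ℤ) ^ 5 - (q : ℤ) ^ 2 + 2) = ((q : ℤ) ^ 7 + 1) - w := by
          rw [← h5, ← h.hRZ]
          linear_combination (w : ℤ) * h7
        have h9 := h.w_le'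
        have h10 : (0 : ℤ) < (q : ℤ) ^ 7 + 1 := by positivity
        have h11 := sq_nonneg ((q : ℤ) + 1)
        linarith
      · have h6 := (h.DU_bd hD).1
        have h7 : (2 * E : ℤ) - R = 1 := by omega
        rw [h7, mul_one] at h5
        have h9 := h.w_le'
        have := h.wZ
        linarith

end UNum

end Cfsg.Agent.R2.Spec.X7
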