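import Cfsg.Agent.R2.Spec.X7.NumM
import Cfsg.Agent.R2.Spec.X7.U7.Eq

/-!
# The numerical conditions for `PSU_7(q)`, `q` odd (helper27)
-/

set_option autoImplicit false

namespace Cfsg.Agent.R2.Spec.X7

/-- the numbers of `PSU_7(q)` -/
structure UNum (p q c w R : ℕ) : Prop where
  hp : p.Prime
  hp2 : p ≠ 2
  hq : ∃ f, 1 ≤ f ∧ q = p ^ f
  hc : c = Nat.gcd 7 (q + 1)
  hw : w = c * (q + 1)
  hR : R * w = q ^ 7 + 1

/-- the condition for the element orders -/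
def WU (p q c : ℕ) (E : ℕ) : Prop := ∃ E0, 0 < E0 ∧ E ∣ E0 ∧ Shape (-(q : ℤ)) p q (q + 1) (q + 1) 7 c E0

/-- the special numbers above `R` -/
def DU (p q : ℕ) (D : ℤ) : Prop :=
  D = (q : ℤ) ^ 4 - (q : ℤ) ^ 3 - 2 ∨ D = (q : ℤ) ^ 6 - q - 2 ∨ (q = p ∧ D = (q : ℤ) ^ 6 + (q : ℤ) ^ 2 + q - 1)

namespace UNum

variable {p q c w R : ℕ} (h : UNum p q c w R)

include h

theorem p3 : 3 ≤ p := by
  have := h.hp.two_le
  have := h.hp2
  omega

theorem pq : p = q ∨ 3 * p ≤ q := by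
  obtain ⟨f, hf, hq⟩ := h.hq
  rcases Nat.eq_or_lt_of_le hf with h1 | h1
  · left; rw [hq, ← h1, pow_one]
  · right
    obtain ⟨g, rfl⟩ : ∃ g, f = g + 2 := ⟨f - 2, by omega⟩
    rw [hq, pow_add]
    calc 3 * p ≤ p * p := Nat.mul_le_mul_right _ h.p3
      _ = 1 * p ^ 2 := by ring
      _ ≤ p ^ g * p ^ 2 := Nat.mul_le_mul_right _ (Nat.one_le_pow _ _ h.hp.pos)

theorem p_le : p ≤ q := by
  have := h.pq
  omega

theorem q3 : 3 ≤ q := by
  have := h.p_le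
  have := h.p3
  omega

theorem qZ : (3 : ℤ) ≤ q := by exact_mod_cast h.q3

theorem q_odd : q % 2 = 1 := by
  obtain ⟨f, hf, hq⟩ := h.hq
  have : Odd q := by rw [hq]; exact (h.hp.odd_of_ne_two h.hp2).pow
  exact Nat.odd_iff.1 this

theorem q4 : (q : ℤ) ≠ 4 := by
  have := h.q_odd
  omega

theorem c_cases : c = 1 ∨ (c = 7 ∧ (q = 13 ∨ 27 ≤ q)) := by
  have h3 := h.q3
  have ho := h.q_odd
  have hc := h.hc
  have h2 : c ∣ 7 := by rw [hc]; exact Nat.gcd_dvd_left _ _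
  rcases (Nat.dvd_prime (by norm_num)).1 h2 with h1 | h1
  · exact Or.inl h1
  · right
    refine ⟨h1, ?_⟩
    have h4 : 7 ∣ q + 1 := by rw [← h1, hc]; exact Nat.gcd_dvd_right _ _
    omega

theorem c_pos : 0 < c := by
  rcases h.c_cases with h1 | ⟨h1, -⟩ <;> omega

theorem two_c : 2 * c ≤ q + 1 := by
  have := h.q3
  rcases h.c_cases with h1 | ⟨h1, h2⟩ <;> omega

theorem w_le : 2 * w ≤ (q + 1) ^ 2 := by
  rw [h.hw, pow_two]
  calc 2 * (c * (q + 1)) = (2 * c) * (q + 1) := by ring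
    _ ≤ _ := Nat.mul_le_mul_right _ h.two_c

theorem w_le' : 2 * (w : ℤ) ≤ ((q : ℤ) + 1) ^ 2 := by exact_mod_cast h.w_le

theorem w_ge : q + 1 ≤ w := by
  rw [h.hw]
  exact Nat.le_mul_of_pos_left _ h.c_pos

theorem w_pos : 0 < w := by
  have := h.w_ge
  omega

theorem wZ : (0 : ℤ) < w := by exact_mod_cast h.w_pos

theorem hRZ : (w : ℤ) * R = (q : ℤ) ^ 7 + 1 := by
  have := congrArg (fun x : ℕ => (x : ℤ)) h.hR
  push_cast at this
  linarith

/-- `c R = Φ` -/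
theorem cR : (c : ℤ) * R = (q : ℤ) ^ 6 - (q : ℤ) ^ 5 + (q : ℤ) ^ 4 - (q : ℤ) ^ 3 + (q : ℤ) ^ 2 - q + 1 := by
  have h4 : (q : ℤ) + 1 ≠ 0 := by positivity
  apply mul_right_cancel₀ h4
  have h1 := h.hRZ
  rw [h.hw] at h1
  push_cast at h1
  linear_combination h1

/-- the small numbers -/
theorem small : 10 * (q ^ 4 * (q + 1)) ≤ 7 * R := by
  have h1 := h.cR
  have h3 := h.q3
  have key : (10 : ℤ) * ((q : ℤ) ^ 4 * (q + 1)) ≤ 7 * R := by
    rcases h.c_cases with hc | ⟨hc, hq⟩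
    · rw [hc, Nat.cast_one, one_mul] at h1
      rw [h1]
      obtain ⟨a, rfl⟩ : ∃ a, q = a + 3 := ⟨q - 3, by omega⟩
      push_cast
      exact pos_le (by clear * -; ring_nf; positivity)
    · rw [hc] at h1
      push_cast at h1
      rw [h1]
      obtain ⟨a, rfl⟩ : ∃ a, q = a + 13 := ⟨q - 13, by omega⟩
      push_cast
      exact pos_le (by clear * -; ring_nf; positivity)
  exact_mod_cast key

theorem small2 (hq3 : q ≠ 3) (hq13 : q ≠ 13) : 2 * (q ^ 4 * (q + 1)) ≤ R := by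
  have h1 := h.cR
  have h3 := h.q3
  have ho := h.q_odd
  have key : (2 : ℤ) * ((q : ℤ) ^ 4 * (q + 1)) ≤ R := by
    rcases h.c_cases with hc | ⟨hc, hq⟩
    · rw [hc, Nat.cast_one, one_mul] at h1
      rw [h1]
      obtain ⟨a, rfl⟩ : ∃ a, q = a + 5 := ⟨q - 5, by omega⟩
      push_cast
      exact pos_le (by clear * -; ring_nf; positivity)
    · rw [hc] at h1
      push_cast at h1
      have h2 : (7 : ℤ) * (2 * ((q : ℤ) ^ 4 * (q + 1))) ≤ 7 * R := by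
        rw [h1]
        obtain ⟨a, rfl⟩ : ∃ a, q = a + 27 := ⟨q - 27, by omega⟩
        push_cast
        exact pos_le (by clear * -; ring_nf; positivity)
      linarith
  exact_mod_cast key

theorem small3 (hq3 : q ≠ 3) : 8 * (q ^ 4 * (q + 1)) ≤ 5 * R := by
  have h1 := h.cR
  have h3 := h.q3
  have ho := h.q_odd
  have key : (8 : ℤ) * ((q : ℤ) ^ 4 * (q + 1)) ≤ 5 * R := by
    rcases h.c_cases with hc | ⟨hc, hq⟩
    · rw [hc, Nat.cast_one, one_mul] at h1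
      rw [h1]
      obtain ⟨a, rfl⟩ : ∃ a, q = a + 5 := ⟨q - 5, by omega⟩
      push_cast
      exact pos_le (by clear * -; ring_nf; positivity)
    · rw [hc] at h1
      push_cast at h1
      have h2 : (7 : ℤ) * (8 * ((q : ℤ) ^ 4 * (q + 1))) ≤ 7 * (5 * R) := by
        have h4 : (7 : ℤ) * (5 * R) = 5 * (7 * R) := by ring
        rw [h4, h1]
        obtain ⟨a, rfl⟩ : ∃ a, q = a + 13 := ⟨q - 13, by omega⟩
        push_cast
        exact pos_le (by clear * -; ring_nf; positivity)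
      linarith
  exact_mod_cast key

theorem big : (q = 3 ∧ R = 547) ∨ (q = 13 ∧ R = 640291) ∨ (5 ≤ q ∧ q ≠ 13 ∧ 7500 ≤ R) := by
  have h3 := h.q3
  have ho := h.q_odd
  have hR := h.hR
  have hw := h.hw
  have h4 : q = 3 ∨ q = 13 ∨ (5 ≤ q ∧ q ≠ 13) := by omega
  rcases h4 with h4 | h4 | ⟨h4, h4'⟩
  · have hc := h.hc
    rw [h4] at hc
    norm_num at hc
    rw [hw, hc, h4] at hR; norm_num at hR; omega
  · have hc := h.hc
    rw [h4] at hc
    norm_num at hc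
    rw [hw, hc, h4] at hR; norm_num at hR; omega
  · right; right
    refine ⟨h4, h4', ?_⟩
    have h5 := h.small2 (by omega) (by omega)
    have h6 : 5 ^ 4 * 6 ≤ q ^ 4 * (q + 1) := Nat.mul_le_mul (Nat.pow_le_pow_left h4 4) (by omega)
    omega

theorem R547 : 547 ≤ R := by
  rcases h.big with ⟨-, h1⟩ | ⟨-, h1⟩ | ⟨-, -, h1⟩ <;> omega

/-- the shapes of the maximal element orders -/
theorem shape_cases {E : ℕ} (hS : Shape (-(q : ℤ)) p q (q + 1) (q + 1) 7 c E) :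
    E = R ∨ (∃ D, DU p q D ∧ (w : ℤ) * ((E : ℤ) - R) = D) ∨ (w : ℤ) * ((R : ℤ) - E) = (q : ℤ) ^ 5 - (q : ℤ) ^ 2 + 2 ∨
      (2 * E ≤ R) ∨ E ≤ q ^ 4 * (q + 1) := by
  have h3 := h.q3
  have hw := h.hw
  have hR := h.hRZ
  have hcp := h.c_pos
  have hw0 : 0 < w := h.w_pos
  rcases hS with h1 | ⟨a, b, ha, hb, hab, h1⟩ | h1 | ⟨k, h1, hk⟩ | h1
  · left
    rw [ua_minus_odd (by decide), ← hw, ← h.hR] at h1
    exact Nat.eq_of_mul_eq_mul_right hw0 h1
  · right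
    have h5 : (a = 1 ∧ b = 6) ∨ (a = 2 ∧ b = 5) ∨ (a = 3 ∧ b = 4) ∨ (a = 4 ∧ b = 3) ∨ (a = 5 ∧ b = 2) ∨
        (a = 6 ∧ b = 1) := by omega
    have h6 : 1 ≤ q ^ 6 := Nat.one_le_pow _ _ (by omega)
    have h4 : 1 ≤ q ^ 4 := Nat.one_le_pow _ _ (by omega)
    have h2 : 1 ≤ q ^ 2 := Nat.one_le_pow _ _ (by omega)
    rcases h5 with ⟨rfl, rfl⟩ | ⟨rfl, rfl⟩ | ⟨rfl, rfl⟩ | ⟨rfl, rfl⟩ | ⟨rfl, rfl⟩ | ⟨rfl, rfl⟩
    · left
      rw [ua_minus_odd (by decide), ua_minus_even (by omega) (by decide), ← hw] at h1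
      have := congrArg (fun x : ℕ => (x : ℤ)) h1
      push_cast [Nat.cast_sub h6] at this
      exact ⟨_, Or.inr (Or.inl rfl), by linear_combination this - hR⟩
    · right; left
      rw [ua_minus_even (by omega) (by decide), ua_minus_odd (by decide), ← hw] at h1
      have := congrArg (fun x : ℕ => (x : ℤ)) h1
      push_cast [Nat.cast_sub h2] at this
      linear_combination hR - this
    · left
      rw [ua_minus_odd (by decide), ua_minus_even (by omega) (by decide), ← hw] at h1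
      have := congrArg (fun x : ℕ => (x : ℤ)) h1
      push_cast [Nat.cast_sub h4] at this
      exact ⟨_, Or.inl rfl, by linear_combination this - hR⟩
    · left
      rw [ua_minus_even (by omega) (by decide), ua_minus_odd (by decide), ← hw] at h1
      have := congrArg (fun x : ℕ => (x : ℤ)) h1
      push_cast [Nat.cast_sub h4] at this
      exact ⟨_, Or.inl rfl, by linear_combination this - hR⟩
    · right; left
      rw [ua_minus_odd (by decide), ua_minus_even (by omega) (by decide), ← hw] at h1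
      have := congrArg (fun x : ℕ => (x : ℤ)) h1
      push_cast [Nat.cast_sub h2] at this
      linear_combination hR - this
    · left
      rw [ua_minus_even (by omega) (by decide), ua_minus_odd (by decide), ← hw] at h1
      have := congrArg (fun x : ℕ => (x : ℤ)) h1
      push_cast [Nat.cast_sub h6] at this
      exact ⟨_, Or.inr (Or.inl rfl), by linear_combination this - hR⟩
  · rw [show 7 - 2 = 5 from rfl, ua_minus_odd (by decide)] at h1
    have hwZ : (w : ℤ) = c * ((q : ℤ) + 1) := by rw [hw]; push_cast; ring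
    have h2 : (w : ℤ) * E = p * ((q : ℤ) ^ 5 + 1) * ((q : ℤ) + 1) := by
      have := congrArg (fun x : ℕ => (x : ℤ)) h1
      push_cast at this
      rw [hwZ]
      linear_combination ((q : ℤ) + 1) * this
    rcases h.pq with h5 | h5
    · right; left
      rw [h5] at h2
      exact ⟨_, Or.inr (Or.inr ⟨h5.symm, rfl⟩), by linear_combination h2 - hR⟩
    · right; right; right; left
      have h6 : (w : ℤ) * (2 * E) ≤ (w : ℤ) * R := by
        have h8 : (0 : ℤ) ≤ ((q : ℤ) ^ 5 + 1) * ((q : ℤ) + 1) := by positivity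
        have h9 : (3 * (p : ℤ)) * (((q : ℤ) ^ 5 + 1) * ((q : ℤ) + 1)) ≤
            q * (((q : ℤ) ^ 5 + 1) * ((q : ℤ) + 1)) := mul_le_mul_of_nonneg_right (by exact_mod_cast h5) h8
        obtain ⟨a, rfl⟩ : ∃ a, q = a + 3 := ⟨q - 3, by omega⟩
        have h10 : (0 : ℤ) ≤ 3 * (((a + 3 : ℕ) : ℤ) ^ 7 + 1) -
            2 * (((a + 3 : ℕ) : ℤ) * (((((a + 3 : ℕ) : ℤ)) ^ 5 + 1) * (((a + 3 : ℕ) : ℤ) + 1))) := by
          clear * -
          push_cast
          ring_nf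
          positivity
        have h11 : (w : ℤ) * (2 * E) * 3 ≤ (w : ℤ) * R * 3 := by
          rw [hR]
          have e1 : (w : ℤ) * (2 * E) * 3 = 2 * ((3 * (p : ℤ)) * (((((a + 3 : ℕ) : ℤ)) ^ 5 + 1) * (((a + 3 : ℕ) : ℤ) + 1))) := by
            linear_combination 6 * h2
          rw [e1]
          linarith
        exact le_of_mul_le_mul_right h11 (by norm_num)
      have h7 := le_of_mul_le_mul_left h6 (by exact_mod_cast hw0)
      exact_mod_cast h7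
  · right; right; right; right
    rw [h1]
    have hpq := h.p_le
    have hp3 := h.p3
    have h2 : p ^ (k + 1) ≤ q ^ 4 := by
      have h5 : k ≤ 1 := by
        by_contra hcon
        have h6 : 3 ^ 2 ≤ p ^ k := (Nat.pow_le_pow_left hp3 2).trans (Nat.pow_le_pow_right (by omega) (by omega))
        omega
      calc p ^ (k + 1) ≤ q ^ (k + 1) := Nat.pow_le_pow_left hpq _
        _ ≤ q ^ 4 := Nat.pow_le_pow_right (by omega) (by omega)
    rw [mul_comm]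
    exact Nat.mul_le_mul_right _ h2
  · right; right; right; right
    have h2 : (q + 1) ^ 2 * E ≤ (q + 1) ^ 2 * (q ^ 4 * (q + 1)) := by
      refine h1.trans (le_of_eq ?_)
      norm_num
      ring
    exact Nat.le_of_mul_le_mul_left h2 (by positivity)

/-- the special numbers -/
theorem DU_bd {D : ℤ} (hD : DU p q D) : ((q : ℤ) + 1) ^ 2 < D ∧ 5 * D ≤ 2 * ((q : ℤ) ^ 7 + 1) ∧
    (3 * ((q : ℤ) ^ 5 - (q : ℤ) ^ 2 + 2) ≤ D ∨ 4 * D ≤ (q : ℤ) ^ 5 - (q : ℤ) ^ 2 + 2) ∧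
      ((q : ℤ) + 1) * D ≤ 2 * ((q : ℤ) ^ 7 + 1) ∧ ((5 : ℤ) ≤ q → 13 * D < 3 * ((q : ℤ) ^ 7 + 1)) := by
  have h3 := h.q3
  refine ⟨?_, ?_, ?_, ?_, fun h5 => ?_⟩
  · obtain ⟨a, rfl⟩ : ∃ a, q = a + 3 := ⟨q - 3, by omega⟩
    rcases hD with rfl | rfl | ⟨-, rfl⟩ <;> push_cast <;> exact pos_lt (by clear * -; ring_nf; positivity)
  · obtain ⟨a, rfl⟩ : ∃ a, q = a + 3 := ⟨q - 3, by omega⟩
    rcases hD with rfl | rfl | ⟨-, rfl⟩ <;> push_cast <;> exact pos_le (by clear * -; ring_nf; positivity)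
  · obtain ⟨a, rfl⟩ : ∃ a, q = a + 3 := ⟨q - 3, by omega⟩
    rcases hD with rfl | rfl | ⟨-, rfl⟩ <;> push_cast
    · right; exact pos_le (by clear * -; ring_nf; positivity)
    · left; exact pos_le (by clear * -; ring_nf; positivity)
    · left; exact pos_le (by clear * -; ring_nf; positivity)
  · obtain ⟨a, rfl⟩ : ∃ a, q = a + 3 := ⟨q - 3, by omega⟩
    rcases hD with rfl | rfl | ⟨-, rfl⟩ <;> push_cast <;> exact pos_le (by clear * -; ring_nf; positivity)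
  · obtain ⟨a, rfl⟩ : ∃ a, q = a + 5 := ⟨q - 5, by omega⟩
    rcases hD with rfl | rfl | ⟨-, rfl⟩ <;> push_cast <;> exact pos_lt (by clear * -; ring_nf; positivity)

theorem shape_le {E : ℕ} (hS : Shape (-(q : ℤ)) p q (q + 1) (q + 1) 7 c E) : 10 * E ≤ 14 * R := by
  have hw0 : (0 : ℤ) < w := by exact_mod_cast h.w_pos
  rcases h.shape_cases hS with h1 | ⟨D, hD, h1⟩ | h1 | h1 | h1
  · omega
  · have h2 := (h.DU_bd hD).2.1
    rw [← h1, ← h.hRZ] at h2
    have h3 : (w : ℤ) * (5 * ((E : ℤ) - R)) ≤ w * (2 * R) := by linarith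
    have h4 := le_of_mul_le_mul_left h3 hw0
    omega
  · have h3 := h.q3
    obtain ⟨a, ha⟩ : ∃ a, q = a + 3 := ⟨q - 3, by omega⟩
    have h2 : (0 : ℤ) ≤ (w : ℤ) * ((R : ℤ) - E) := by
      rw [h1, ha]; push_cast; clear * -; ring_nf; positivity
    have h4 : (0 : ℤ) ≤ (R : ℤ) - E := by
      by_contra hcon
      have := mul_neg_of_pos_of_neg hw0 (not_le.1 hcon)
      linarith
    omega
  · omega
  · have := h.small
    omega

/-- the window -/
theorem spec {E : ℕ} (hW : WU p q c E) (h7 : 7 * R < 10 * E) (hne : E ≠ R) :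
    (∃ D, DU p q D ∧ (w : ℤ) * ((E : ℤ) - R) = D) ∨ (w : ℤ) * ((R : ℤ) - E) = (q : ℤ) ^ 5 - (q : ℤ) ^ 2 + 2 := by
  obtain ⟨E0, h0, ⟨j, hj⟩, hS⟩ := hW
  have h3 := h.shape_le hS
  have hj1 : j = 1 := by
    have h4 : j ≠ 0 := by
      rintro rfl
      omega
    by_contra h5
    have h6 : E * 2 ≤ E * j := Nat.mul_le_mul_left _ (by omega)
    omega
  rw [hj1, mul_one] at hj
  rw [hj] at hS
  have hs := h.small
  rcases h.shape_cases hS with h4 | h4 | h4 | h4 | h4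
  · exact absurd h4 hne
  · exact Or.inl h4
  · exact Or.inr h4
  · omega
  · omega

/-- the larger window -/
theorem spec2 {E : ℕ} (hW : WU p q c E) (hs : q ^ 4 * (q + 1) < E) (h7 : R < 2 * E) (hne : E ≠ R) :
    (∃ D, DU p q D ∧ (w : ℤ) * ((E : ℤ) - R) = D) ∨ (w : ℤ) * ((R : ℤ) - E) = (q : ℤ) ^ 5 - (q : ℤ) ^ 2 + 2 ∨
      ∃ D, DU p q D ∧ (w : ℤ) * ((2 * E : ℤ) - R) = D := by
  obtain ⟨E0, h0, ⟨j, hj⟩, hS⟩ := hW
  have h3 := h.shape_le hS
  have hj2 : j = 1 ∨ j = 2 := by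
    have h4 : j ≠ 0 := by
      rintro rfl
      omega
    by_contra h5
    have h6 : E * 3 ≤ E * j := Nat.mul_le_mul_left _ (by omega)
    omega
  rcases hj2 with hj1 | hj1
  · rw [hj1, mul_one] at hj
    rw [hj] at hS
    rcases h.shape_cases hS with h4 | h4 | h4 | h4 | h4
    · exact absurd h4 hne
    · exact Or.inl h4
    · exact Or.inr (Or.inl h4)
    · omega
    · omega
  · rw [hj1] at hj
    rw [hj] at hS
    have hw0 : (0 : ℤ) < w := by exact_mod_cast h.w_pos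
    rcases h.shape_cases hS with h4 | ⟨D, hD, h4⟩ | h4 | h4 | h4
    · omega
    · right; right
      refine ⟨D, hD, ?_⟩
      rw [← h4]
      push_cast
      ring
    · exfalso
      have h5 := h.q3
      obtain ⟨a, ha⟩ : ∃ a, q = a + 3 := ⟨q - 3, by omega⟩
      have h6 : (0 : ℤ) < (w : ℤ) * ((R : ℤ) - (E * 2 : ℕ)) := by
        rw [h4, ha]; push_cast; clear * -; ring_nf; positivity
      have h7 := pos_of_mul_pos_nat' h6
      push_cast at h7
      omega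
    · omega
    · omega

theorem not_dvd_q {u : ℕ} (hu : ¬ p ∣ u) : ¬ q ∣ u := by
  intro hd
  obtain ⟨f, hf, hq⟩ := h.hq
  exact hu ((hq ▸ dvd_pow_self p (by omega) : p ∣ q).trans hd)

theorem ne_q {u : ℕ} (hu : ¬ p ∣ u) : (u : ℤ) ≠ q := by
  intro h6
  have : u = q := by exact_mod_cast h6
  exact h.not_dvd_q hu (dvd_of_eq this.symm)

theorem ne39 (hp3 : p ≠ 3) : q ≠ 3 ∧ q ≠ 9 := by
  obtain ⟨f, hf, hq⟩ := h.hq
  have h1 : p ∣ q := hq ▸ dvd_pow_self p (by omega)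
  constructor
  · intro h2
    rw [h2, Nat.prime_dvd_prime_iff_eq h.hp Nat.prime_three] at h1
    exact hp3 h1
  · intro h2
    rw [h2] at h1
    have h3 : p ∣ 3 := h.hp.dvd_of_dvd_pow (n := 2) (by norm_num; exact h1)
    rw [Nat.prime_dvd_prime_iff_eq h.hp Nat.prime_three] at h3
    exact hp3 h3

/-- the special number below `R` -/
theorem X_bd : ((q : ℤ) + 1) ^ 2 < (q : ℤ) ^ 5 - (q : ℤ) ^ 2 + 2 ∧
    8 * ((q : ℤ) ^ 5 - (q : ℤ) ^ 2 + 2) < 2 * ((q : ℤ) ^ 7 + 1) - 4 * ((q : ℤ) + 1) ^ 2 := by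
  have h3 := h.q3
  obtain ⟨a, rfl⟩ : ∃ a, q = a + 3 := ⟨q - 3, by omega⟩
  push_cast
  exact ⟨pos_lt (by clear * -; ring_nf; positivity), pos_lt (by clear * -; ring_nf; positivity)⟩

theorem above {E : ℕ} {D : ℤ} (hD : DU p q D) (h1 : (w : ℤ) * ((E : ℤ) - R) = D) : R < E := by
  have h2 := (h.DU_bd hD).1
  have h3 : (0 : ℤ) < (w : ℤ) * ((E : ℤ) - R) := by
    rw [h1]; exact lt_of_le_of_lt (sq_nonneg _) h2
  have := pos_of_mul_pos_nat' h3
  omega

theorem below {E : ℕ} (h1 : (w : ℤ) * ((R : ℤ) - E) = (q : ℤ) ^ 5 - (q : ℤ) ^ 2 + 2) : E < R := by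
  have h2 := h.X_bd.1
  have h3 : (0 : ℤ) < (w : ℤ) * ((R : ℤ) - E) := by
    rw [h1]; exact lt_of_le_of_lt (sq_nonneg _) h2
  have := pos_of_mul_pos_nat' h3
  omega

/-- an order above `R` in the window -/
theorem spec_above {E : ℕ} (hW : WU p q c E) (h1 : R < E) : ∃ D, DU p q D ∧ (w : ℤ) * ((E : ℤ) - R) = D := by
  rcases h.spec hW (by omega) (by omega) with h2 | h2
  · exact h2
  · have := h.below h2
    omega

/-- an order below `R` in the window -/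
theorem spec_below {E : ℕ} (hW : WU p q c E) (h7 : 7 * R < 10 * E) (h1 : E < R) :
    (w : ℤ) * ((R : ℤ) - E) = (q : ℤ) ^ 5 - (q : ℤ) ^ 2 + 2 := by
  rcases h.spec hW h7 (by omega) with ⟨D, hD, h2⟩ | h2
  · have := h.above hD h2
    omega
  · exact h2

theorem le_upper {E : ℕ} (hW : WU p q c E) : 10 * E ≤ 14 * R := by
  obtain ⟨E0, h0, hd, hS⟩ := hW
  have h1 := Nat.le_of_dvd h0 hd
  have h2 := h.shape_le hS
  omega

theorem DU_pair {D D' : ℤ} (hD : DU p q D) (hD' : DU p q D') (hlt : D' < D) : (4 * D ≤ 5 * D' ∧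
    D - D' = ((q : ℤ) + 1) ^ 2) ∨ 10 * D' ≤ D := by
  have h3 := h.q3
  obtain ⟨a, rfl⟩ : ∃ a, q = a + 3 := ⟨q - 3, by omega⟩
  rcases hD with rfl | rfl | ⟨-, rfl⟩ <;> rcases hD' with rfl | rfl | ⟨-, rfl⟩ <;> push_cast at hlt ⊢
  · exact absurd hlt (lt_irrefl _)
  · exact absurd hlt (not_lt.2 (pos_le (by clear * -; ring_nf; positivity)))
  · exact absurd hlt (not_lt.2 (pos_le (by clear * -; ring_nf; positivity)))
  · right; exact pos_le (by clear * -; ring_nf; positivity)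
  · exact absurd hlt (lt_irrefl _)
  · exact absurd hlt (not_lt.2 (pos_le (by clear * -; ring_nf; positivity)))
  · right; exact pos_le (by clear * -; ring_nf; positivity)
  · left; exact ⟨pos_le (by clear * -; ring_nf; positivity), by ring⟩
  · exact absurd hlt (lt_irrefl _)

theorem DU_5 (hq : 7 ≤ q) {D : ℤ} (hD : DU p q D) : 5 * D < (q : ℤ) ^ 7 + 1 := by
  obtain ⟨a, rfl⟩ : ∃ a, q = a + 7 := ⟨q - 7, by omega⟩
  rcases hD with rfl | rfl | ⟨-, rfl⟩ <;> push_cast <;> exact pos_lt (by clear * -; ring_nf; positivity)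

theorem DU_9 (hq : 11 ≤ q) {D : ℤ} (hD : DU p q D) : 18 * D < 2 * ((q : ℤ) ^ 7 + 1) - 25 * ((q : ℤ) + 1) ^ 2 := by
  obtain ⟨a, rfl⟩ : ∃ a, q = a + 11 := ⟨q - 11, by omega⟩
  rcases hD with rfl | rfl | ⟨-, rfl⟩ <;> push_cast <;> exact pos_lt (by clear * -; ring_nf; positivity)

/-- the type `U`, odd -/
theorem typeO {u z : ℕ} {D : ℤ} (hD : DU p q D) (hpu : ¬ p ∣ u) (hu : 2 ≤ u) (hz : u ^ 3 ≤ z) (hz2 : 61 ≤ u * z + 1)
    (hcr : D * ((u : ℤ) * z + 1) = ((q : ℤ) ^ 7 + 1) * (z - u - 2)) : False := by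
  have hzz : (u : ℤ) ^ 3 ≤ z := by exact_mod_cast hz
  have hzz2 : (61 : ℤ) ≤ (u : ℤ) * z + 1 := by exact_mod_cast hz2
  have huz : (2 : ℤ) ≤ u := by exact_mod_cast hu
  have hK := U7.K_pos h.qZ
  rcases hD with rfl | rfl | ⟨-, rfl⟩
  · exact U7.o1 h.qZ h.q4 huz hzz hzz2 hcr
  · exact U7.eqO (U7.D2_pos h.qZ) hK huz hzz hzz2 hcr (U7.o2 h.qZ (h.ne_q hpu))
  · exact U7.eqO (U7.D3_pos h.qZ) hK huz hzz hzz2 hcr (U7.o3 h.qZ)

theorem not_13 : ¬ 13 ∣ R := by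
  intro hd
  have h1 : (13 : ℤ) ∣ (q : ℤ) ^ 6 - (q : ℤ) ^ 5 + (q : ℤ) ^ 4 - (q : ℤ) ^ 3 + (q : ℤ) ^ 2 - q + 1 := by
    rw [← h.cR]
    exact Dvd.dvd.mul_left (by exact_mod_cast hd) _
  rw [show (13 : ℤ) = ((13 : ℕ) : ℤ) from rfl, ← ZMod.intCast_zmod_eq_zero_iff_dvd] at h1
  push_cast at h1
  have h2 : ∀ x : ZMod 13, x ^ 6 - x ^ 5 + x ^ 4 - x ^ 3 + x ^ 2 - x + 1 ≠ 0 := by decide
  exact h2 _ h1

end UNum

end Cfsg.Agent.R2.Spec.X7
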